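import Cfsg.Agent.H589.BD.Defs
import Cfsg.Agent.OddHalf.Known

/-!
# S4932 / S4953: the table of rows (helper787)

`Table` : one field per family and case; the owner of a field delivers exactly this statement.
`rows_of_table` : all fields give `H589.BD.Rows` (with the classification and `SizeOK` as hypotheses).
-/

set_option autoImplicit false

namespace Cfsg.Agent.H787.BD

open Cfsg Cfsg.Agent.H589.BD

universe u

/-- The rows at `p` of all nonabelian finite simple groups with the property `C` (`p` divides the order). -/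
def RowsOf (p : ℕ) (C : ∀ (S : Type u) [Group S], Prop) : Prop :=
  ∀ (S : Type u) [Group S] [Finite S] [IsSimpleGroup S], ¬ IsMulCommutative S → SizeOK S → p ∣ Nat.card S →
    C S → Row p S

/-- `ord_p |F|`. -/
noncomputable def ordF (p : ℕ) (F : Type) [Fintype F] : ℕ := orderOf ((Fintype.card F : ℕ) : ZMod p)

/-- `p²` times `lcm (2, ord_p |F|)`: the classical groups of symplectic and orthogonal type have weight at least `p²`
if this is at most the dimension. -/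
noncomputable def bnd (p : ℕ) (F : Type) [Fintype F] : ℕ := p ^ 2 * Nat.lcm 2 (ordF p F)

/-- The alternating groups, the sporadic groups, the Tits group. -/
structure TabAS : Prop where
  /-- helper710 (`A_5`, `A_6`: helper585) -/
  alt : ∀ p : ℕ, p.Prime → RowsOf.{u} p (fun S _ => IsAlternating S)
  /-- helper619 -/
  spor : ∀ p : ℕ, p.Prime → RowsOf.{u} p (fun S _ => IsSporadicGroup S)
  /-- helper619 (`p = 2`), helper849 (`p` odd) -/
  tits : ∀ p : ℕ, p.Prime → RowsOf.{u} p (fun S _ => Lie.IsoTits S)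

/-- Own characteristic. -/
structure TabOwn : Prop where
  /-- helper872 -/
  psl : ∀ p : ℕ, p.Prime → RowsOf.{u} p (fun S _ => IsPSLChar p S)
  /-- helper362 -/
  psp : ∀ p : ℕ, p.Prime → RowsOf.{u} p (fun S _ => IsPSpChar p S)
  /-- helper576 -/
  psu : ∀ p : ℕ, p.Prime → RowsOf.{u} p (fun S _ => IsPSUChar p S)
  /-- helper725 -/
  odd : ∀ p : ℕ, p.Prime → RowsOf.{u} p (fun S _ => IsPOmegaOddChar p S)
  /-- helper725 -/
  plus : ∀ p : ℕ, p.Prime → RowsOf.{u} p (fun S _ => IsPOmegaPlusChar p S)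
  /-- helper725 -/
  minus : ∀ p : ℕ, p.Prime → RowsOf.{u} p (fun S _ => IsPOmegaMinusChar p S)
  /-- helper654 (groups with `p`-covers `G2(4)`, `F4(2)`, `2E6(2)`, `Sz(8)`, `G2(3)`: helper555) -/
  exc : ∀ p : ℕ, p.Prime → RowsOf.{u} p (fun S _ => IsExceptionalChevChar p S)
  /-- helper654 -/
  tw : ∀ p : ℕ, p.Prime → RowsOf.{u} p (fun S _ => IsTwistedE6D4Char p S)
  /-- helper654 -/
  sz : RowsOf.{u} 2 (fun S _ => Lie.IsoSuzuki S)
  /-- helper654 -/
  tf : RowsOf.{u} 2 (fun S _ => Lie.Iso2F4 S)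
  /-- helper654 -/
  ree : RowsOf.{u} 3 (fun S _ => Lie.IsoRee S)

/-- `p = 2`, odd characteristic `r`. -/
structure TabTwo : Prop where
  /-- helper585 -/
  psl2 : ∀ (r : ℕ), r.Prime → r ≠ 2 → ∀ (F : Type) [Field F] [Fintype F] [CharP F r], 4 ≤ Fintype.card F →
    RowsOf.{u} 2 (fun S _ => Nonempty (S ≃* Matrix.ProjectiveSpecialLinearGroup (Fin 2) F))
  /-- helper585 (or helper296, helper510) -/
  psl3 : ∀ (r : ℕ), r.Prime → r ≠ 2 → ∀ (F : Type) [Field F] [Fintype F] [CharP F r],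
    RowsOf.{u} 2 (fun S _ => Nonempty (S ≃* Matrix.ProjectiveSpecialLinearGroup (Fin 3) F))
  /-- helper749 -/
  psl : ∀ (r : ℕ), r.Prime → r ≠ 2 → ∀ (F : Type) [Field F] [Fintype F] [CharP F r] (n : ℕ), 4 ≤ n →
    RowsOf.{u} 2 (fun S _ => Nonempty (S ≃* Matrix.ProjectiveSpecialLinearGroup (Fin n) F))
  /-- helper585 (or helper296, helper510) -/
  psu3 : ∀ (r : ℕ), r.Prime → r ≠ 2 → ∀ (F : Type) [Field F] [Fintype F] [CharP F r] (q : ℕ),
    Fintype.card F = q ^ 2 → q ≠ 2 → RowsOf.{u} 2 (fun S _ => Nonempty (S ≃* PSU 3 F q))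
  /-- helper749 -/
  psu : ∀ (r : ℕ), r.Prime → r ≠ 2 → ∀ (F : Type) [Field F] [Fintype F] [CharP F r] (n q : ℕ),
    Fintype.card F = q ^ 2 → 4 ≤ n → RowsOf.{u} 2 (fun S _ => Nonempty (S ≃* PSU n F q))
  /-- helper749 -/
  psp : ∀ (r : ℕ), r.Prime → r ≠ 2 → RowsOf.{u} 2 (fun S _ => IsPSpChar r S)
  /-- helper749 -/
  odd : ∀ (r : ℕ), r.Prime → r ≠ 2 → RowsOf.{u} 2 (fun S _ => IsPOmegaOddChar r S)
  /-- helper749 -/
  plus : ∀ (r : ℕ), r.Prime → r ≠ 2 → RowsOf.{u} 2 (fun S _ => IsPOmegaPlusChar r S)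
  /-- helper749 -/
  minus : ∀ (r : ℕ), r.Prime → r ≠ 2 → RowsOf.{u} 2 (fun S _ => IsPOmegaMinusChar r S)
  /-- helper585 -/
  g2 : ∀ (r : ℕ), r.Prime → r ≠ 2 → ∀ (F : Type) [Field F] [Fintype F] [CharP F r], 3 ≤ Fintype.card F →
    RowsOf.{u} 2 (fun S _ => Nonempty (S ≃* Lie.chevG2.group F))
  /-- helper749 -/
  f4 : ∀ (r : ℕ), r.Prime → r ≠ 2 → ∀ (F : Type) [Field F] [Fintype F] [CharP F r],
    RowsOf.{u} 2 (fun S _ => Nonempty (S ≃* Lie.chevF4.group F))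
  /-- helper749 -/
  e6 : ∀ (r : ℕ), r.Prime → r ≠ 2 → ∀ (F : Type) [Field F] [Fintype F] [CharP F r],
    RowsOf.{u} 2 (fun S _ => Nonempty (S ≃* Lie.chevE6.group F))
  /-- helper749 -/
  e7 : ∀ (r : ℕ), r.Prime → r ≠ 2 → ∀ (F : Type) [Field F] [Fintype F] [CharP F r],
    RowsOf.{u} 2 (fun S _ => Nonempty (S ≃* Lie.chevE7.group F))
  /-- helper749 -/
  e8 : ∀ (r : ℕ), r.Prime → r ≠ 2 → ∀ (F : Type) [Field F] [Fintype F] [CharP F r],
    RowsOf.{u} 2 (fun S _ => Nonempty (S ≃* Lie.chevE8.group F))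
  /-- helper749 -/
  te : ∀ (r : ℕ), r.Prime → r ≠ 2 → ∀ (K : Type) [Field K] [Fintype K] [CharP K r] (q : ℕ), IsPrimePow q →
    Fintype.card K = q ^ 2 → RowsOf.{u} 2 (fun S _ => Nonempty (S ≃* Lie.twistedE6 K q))
  /-- helper585 -/
  td : ∀ (r : ℕ), r.Prime → r ≠ 2 → ∀ (K : Type) [Field K] [Fintype K] [CharP K r] (q : ℕ), IsPrimePow q →
    Fintype.card K = q ^ 3 → RowsOf.{u} 2 (fun S _ => Nonempty (S ≃* Lie.twistedD4 K q))
  /-- helper585 -/
  ree : RowsOf.{u} 2 (fun S _ => Lie.IsoRee S)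

/-- `p` odd, different from the characteristic: the large classical groups. -/
structure TabBig : Prop where
  /-- helper978 -/
  psl : ∀ p r : ℕ, p.Prime → r.Prime → p ≠ 2 → p ≠ r → ∀ (F : Type) [Field F] [Fintype F] [CharP F r] (n : ℕ),
    3 ≤ n → (p ^ 2 * ordF p F ≤ n ∨ (p ∣ n ∧ p ∣ Fintype.card F - 1)) →
      RowsOf.{u} p (fun S _ => Nonempty (S ≃* Matrix.ProjectiveSpecialLinearGroup (Fin n) F))
  /-- helper719 -/
  psp : ∀ p r : ℕ, p.Prime → r.Prime → p ≠ 2 → p ≠ r → ∀ (F : Type) [Field F] [Fintype F] [CharP F r] (m : ℕ),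
    2 ≤ m → bnd p F ≤ 2 * m → RowsOf.{u} p (fun S _ => Nonempty (S ≃* PSp m F))
  /-- helper719 -/
  psu : ∀ p r : ℕ, p.Prime → r.Prime → p ≠ 2 → p ≠ r → ∀ (F : Type) [Field F] [Fintype F] [CharP F r] (n q : ℕ),
    Fintype.card F = q ^ 2 → 4 ≤ n → (p ^ 2 * orderOf (-(q : ZMod p)) ≤ n ∨ (p ∣ n ∧ p ∣ q + 1)) →
      RowsOf.{u} p (fun S _ => Nonempty (S ≃* PSU n F q))
  /-- helper674 -/
  odd : ∀ p r : ℕ, p.Prime → r.Prime → p ≠ 2 → p ≠ r → ∀ (F : Type) [Field F] [Fintype F] [CharP F r] (m : ℕ),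
    3 ≤ m → Odd (Fintype.card F) → bnd p F ≤ 2 * m →
      RowsOf.{u} p (fun S _ => Nonempty (S ≃* POmega F (quadFormOdd m F)))
  /-- helper674 -/
  plus : ∀ p r : ℕ, p.Prime → r.Prime → p ≠ 2 → p ≠ r → ∀ (F : Type) [Field F] [Fintype F] [CharP F r] (m : ℕ),
    4 ≤ m → (bnd p F < 2 * m ∨ (bnd p F = 2 * m ∧ Odd (ordF p F))) →
      RowsOf.{u} p (fun S _ => Nonempty (S ≃* POmega F (quadFormPlus m F)))
  /-- helper674 -/
  minus : ∀ p r : ℕ, p.Prime → r.Prime → p ≠ 2 → p ≠ r → ∀ (F : Type) [Field F] [Fintype F] [CharP F r] (m : ℕ)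
    (a b : F), 4 ≤ m → (∀ z₁ z₂ : F, z₁ ^ 2 + a * z₁ * z₂ + b * z₂ ^ 2 = 0 → z₁ = 0 ∧ z₂ = 0) →
    (bnd p F < 2 * m ∨ (bnd p F = 2 * m ∧ Even (ordF p F))) →
      RowsOf.{u} p (fun S _ => Nonempty (S ≃* POmega F (quadFormMinus (m - 1) F a b)))
  /-- helper726 -/
  e6 : ∀ r : ℕ, r.Prime → r ≠ 3 → ∀ (F : Type) [Field F] [Fintype F] [CharP F r],
    RowsOf.{u} 3 (fun S _ => Nonempty (S ≃* Lie.chevE6.group F))
  /-- helper726 -/
  e7 : ∀ r : ℕ, r.Prime → r ≠ 3 → ∀ (F : Type) [Field F] [Fintype F] [CharP F r],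
    RowsOf.{u} 3 (fun S _ => Nonempty (S ≃* Lie.chevE7.group F))
  /-- helper726 -/
  e8 : ∀ r : ℕ, r.Prime → r ≠ 3 → ∀ (F : Type) [Field F] [Fintype F] [CharP F r],
    RowsOf.{u} 3 (fun S _ => Nonempty (S ≃* Lie.chevE8.group F))
  /-- helper726 -/
  te : ∀ r : ℕ, r.Prime → r ≠ 3 → ∀ (K : Type) [Field K] [Fintype K] [CharP K r] (q : ℕ), IsPrimePow q →
    Fintype.card K = q ^ 2 → RowsOf.{u} 3 (fun S _ => Nonempty (S ≃* Lie.twistedE6 K q))

/-- `p` odd, different from the characteristic: the tame part. -/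
structure TabSmall : Prop where
  /-- helper510 -/
  psl : ∀ p r : ℕ, p.Prime → r.Prime → p ≠ 2 → p ≠ r → ∀ (F : Type) [Field F] [Fintype F] [CharP F r] (n : ℕ),
    2 ≤ n → (n = 2 → 4 ≤ Fintype.card F) → n < p ^ 2 * ordF p F → ¬ (p ∣ n ∧ p ∣ Fintype.card F - 1) →
      RowsOf.{u} p (fun S _ => Nonempty (S ≃* Matrix.ProjectiveSpecialLinearGroup (Fin n) F))
  /-- helper510 -/
  psp : ∀ p r : ℕ, p.Prime → r.Prime → p ≠ 2 → p ≠ r → ∀ (F : Type) [Field F] [Fintype F] [CharP F r] (m : ℕ),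
    2 ≤ m → (m = 2 → 3 ≤ Fintype.card F) → 2 * m < bnd p F → RowsOf.{u} p (fun S _ => Nonempty (S ≃* PSp m F))
  /-- helper510 (`p = 3`, `n = 3`, `3 ∣ q + 1`: T7 of helper585) -/
  psu : ∀ p r : ℕ, p.Prime → r.Prime → p ≠ 2 → p ≠ r → ∀ (F : Type) [Field F] [Fintype F] [CharP F r] (n q : ℕ),
    Fintype.card F = q ^ 2 → 3 ≤ n → ¬ (n = 3 ∧ q = 2) → n < p ^ 2 * orderOf (-(q : ZMod p)) →
    (n = 3 ∨ ¬ (p ∣ n ∧ p ∣ q + 1)) → RowsOf.{u} p (fun S _ => Nonempty (S ≃* PSU n F q))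
  /-- helper510 -/
  odd : ∀ p r : ℕ, p.Prime → r.Prime → p ≠ 2 → p ≠ r → ∀ (F : Type) [Field F] [Fintype F] [CharP F r] (m : ℕ),
    3 ≤ m → Odd (Fintype.card F) → 2 * m < bnd p F →
      RowsOf.{u} p (fun S _ => Nonempty (S ≃* POmega F (quadFormOdd m F)))
  /-- helper510 -/
  plus : ∀ p r : ℕ, p.Prime → r.Prime → p ≠ 2 → p ≠ r → ∀ (F : Type) [Field F] [Fintype F] [CharP F r] (m : ℕ),
    4 ≤ m → (2 * m < bnd p F ∨ (2 * m = bnd p F ∧ Even (ordF p F))) →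
      RowsOf.{u} p (fun S _ => Nonempty (S ≃* POmega F (quadFormPlus m F)))
  /-- helper510 -/
  minus : ∀ p r : ℕ, p.Prime → r.Prime → p ≠ 2 → p ≠ r → ∀ (F : Type) [Field F] [Fintype F] [CharP F r] (m : ℕ)
    (a b : F), 4 ≤ m → (∀ z₁ z₂ : F, z₁ ^ 2 + a * z₁ * z₂ + b * z₂ ^ 2 = 0 → z₁ = 0 ∧ z₂ = 0) →
    (2 * m < bnd p F ∨ (2 * m = bnd p F ∧ Odd (ordF p F))) →
      RowsOf.{u} p (fun S _ => Nonempty (S ≃* POmega F (quadFormMinus (m - 1) F a b)))
  /-- helper849 -/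
  g2 : ∀ p r : ℕ, p.Prime → r.Prime → p ≠ 2 → p ≠ r → ∀ (F : Type) [Field F] [Fintype F] [CharP F r],
    3 ≤ Fintype.card F → RowsOf.{u} p (fun S _ => Nonempty (S ≃* Lie.chevG2.group F))
  /-- helper849 -/
  f4 : ∀ p r : ℕ, p.Prime → r.Prime → p ≠ 2 → p ≠ r → ∀ (F : Type) [Field F] [Fintype F] [CharP F r],
    RowsOf.{u} p (fun S _ => Nonempty (S ≃* Lie.chevF4.group F))
  /-- helper849 -/
  e6 : ∀ p r : ℕ, p.Prime → r.Prime → p ≠ 2 → p ≠ 3 → p ≠ r → ∀ (F : Type) [Field F] [Fintype F] [CharP F r],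
    RowsOf.{u} p (fun S _ => Nonempty (S ≃* Lie.chevE6.group F))
  /-- helper849 -/
  e7 : ∀ p r : ℕ, p.Prime → r.Prime → p ≠ 2 → p ≠ 3 → p ≠ r → ∀ (F : Type) [Field F] [Fintype F] [CharP F r],
    RowsOf.{u} p (fun S _ => Nonempty (S ≃* Lie.chevE7.group F))
  /-- helper849 -/
  e8 : ∀ p r : ℕ, p.Prime → r.Prime → p ≠ 2 → p ≠ 3 → p ≠ r → ∀ (F : Type) [Field F] [Fintype F] [CharP F r],
    RowsOf.{u} p (fun S _ => Nonempty (S ≃* Lie.chevE8.group F))
  /-- helper849 -/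
  te : ∀ p r : ℕ, p.Prime → r.Prime → p ≠ 2 → p ≠ 3 → p ≠ r → ∀ (K : Type) [Field K] [Fintype K] [CharP K r]
    (q : ℕ), IsPrimePow q → Fintype.card K = q ^ 2 → RowsOf.{u} p (fun S _ => Nonempty (S ≃* Lie.twistedE6 K q))
  /-- helper849 -/
  td : ∀ p r : ℕ, p.Prime → r.Prime → p ≠ 2 → p ≠ r → ∀ (K : Type) [Field K] [Fintype K] [CharP K r]
    (q : ℕ), IsPrimePow q → Fintype.card K = q ^ 3 → RowsOf.{u} p (fun S _ => Nonempty (S ≃* Lie.twistedD4 K q))
  /-- helper849 -/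
  sz : ∀ p : ℕ, p.Prime → p ≠ 2 → RowsOf.{u} p (fun S _ => Lie.IsoSuzuki S)
  /-- helper849 -/
  tf : ∀ p : ℕ, p.Prime → p ≠ 2 → RowsOf.{u} p (fun S _ => Lie.Iso2F4 S)
  /-- helper849 -/
  ree : ∀ p : ℕ, p.Prime → p ≠ 2 → p ≠ 3 → RowsOf.{u} p (fun S _ => Lie.IsoRee S)

/-- Lie type in characteristic `r = p`. -/
theorem TabOwn.row (T : TabOwn.{u}) {p : ℕ} (hp : p.Prime) : RowsOf.{u} p (fun S _ => IsLieTypeChar p S) := by
  intro S _ _ _ hna hz hd h
  rcases h with h | h | h | h | h | h | h | h | ⟨rfl, h⟩ | ⟨rfl, h⟩ | ⟨rfl, h⟩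
  · exact T.psl p hp S hna hz hd h
  · exact T.psp p hp S hna hz hd h
  · exact T.psu p hp S hna hz hd h
  · exact T.odd p hp S hna hz hd h
  · exact T.plus p hp S hna hz hd h
  · exact T.minus p hp S hna hz hd h
  · exact T.exc p hp S hna hz hd h
  · exact T.tw p hp S hna hz hd h
  · exact T.sz S hna hz hd h
  · exact T.tf S hna hz hd h
  · exact T.ree S hna hz hd h

/-- `p = 2`, `r` odd. -/
theorem TabTwo.row (T : TabTwo.{u}) {r : ℕ} (hr : r.Prime) (h2 : r ≠ 2) :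
    RowsOf.{u} 2 (fun S _ => IsLieTypeChar r S) := by
  intro S _ _ _ hna hz hd h
  rcases h with h | h | h | h | h | h | h | h | ⟨rfl, h⟩ | ⟨rfl, h⟩ | ⟨rfl, h⟩
  · obtain ⟨F, _, _, _, n, hn, h3, h⟩ := h
    rcases (show n = 2 ∨ n = 3 ∨ 4 ≤ n by omega) with rfl | rfl | h4
    · exact T.psl2 r hr h2 F (h3 rfl) S hna hz hd h
    · exact T.psl3 r hr h2 F S hna hz hd h
    · exact T.psl r hr h2 F n h4 S hna hz hd h
  · exact T.psp r hr h2 S hna hz hd h
  · obtain ⟨F, _, _, _, n, q, hc, hn, h3, h⟩ := h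
    rcases (show n = 3 ∨ 4 ≤ n by omega) with rfl | h4
    · exact T.psu3 r hr h2 F q hc (fun hq => h3 ⟨rfl, hq⟩) S hna hz hd h
    · exact T.psu r hr h2 F n q hc h4 S hna hz hd h
  · exact T.odd r hr h2 S hna hz hd h
  · exact T.plus r hr h2 S hna hz hd h
  · exact T.minus r hr h2 S hna hz hd h
  · obtain ⟨F, _, _, _, ⟨h3, h⟩ | h | h | h | h⟩ := h
    · exact T.g2 r hr h2 F h3 S hna hz hd h
    · exact T.f4 r hr h2 F S hna hz hd h
    · exact T.e6 r hr h2 F S hna hz hd h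
    · exact T.e7 r hr h2 F S hna hz hd h
    · exact T.e8 r hr h2 F S hna hz hd h
  · obtain ⟨K, _, _, _, q, hq, ⟨hc, h⟩ | ⟨hc, h⟩⟩ := h
    · exact T.te r hr h2 K q hq hc S hna hz hd h
    · exact T.td r hr h2 K q hq hc S hna hz hd h
  · exact absurd rfl h2
  · exact absurd rfl h2
  · exact T.ree S hna hz hd h

/-- `p` odd, `r ≠ p`. -/
theorem TabBig.row (B : TabBig.{u}) (T : TabSmall.{u}) {p r : ℕ} (hp : p.Prime) (hr : r.Prime) (h2 : p ≠ 2)
    (hpr : p ≠ r) : RowsOf.{u} p (fun S _ => IsLieTypeChar r S) := by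
  intro S _ _ _ hna hz hd h
  rcases h with h | h | h | h | h | h | h | h | ⟨rfl, h⟩ | ⟨rfl, h⟩ | ⟨rfl, h⟩
  · obtain ⟨F, _, _, _, n, hn, h3, h⟩ := h
    by_cases h4 : p ^ 2 * ordF p F ≤ n ∨ (p ∣ n ∧ p ∣ Fintype.card F - 1)
    · by_cases hn3 : 3 ≤ n
      · exact B.psl p r hp hr h2 hpr F n hn3 h4 S hna hz hd h
      · have hn2 : n = 2 := by omega
        subst hn2
        exfalso
        have hp3 : 3 ≤ p := by have := hp.two_le; omega
        rcases h4 with h4 | h4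
        · have h5 : 0 < ordF p F := by
            rcases Nat.eq_zero_or_pos (ordF p F) with h0 | h0
            · exfalso
              have : Fact p.Prime := ⟨hp⟩
              have hu : IsUnit ((Fintype.card F : ℕ) : ZMod p) := by
                rw [ZMod.isUnit_iff_coprime]
                obtain ⟨k, -, hk⟩ := FiniteField.card F r
                rw [hk]
                exact Nat.Coprime.pow_left _ ((Nat.coprime_primes hr hp).2 hpr.symm)
              obtain ⟨x, hx⟩ := hu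
              unfold ordF at h0
              rw [← hx, orderOf_units] at h0
              exact absurd h0 (orderOf_pos x).ne'
            · exact h0
          have h6 : 9 ≤ p ^ 2 := by nlinarith
          have h7 : 9 ≤ p ^ 2 * ordF p F := by nlinarith
          omega
        · have := Nat.le_of_dvd (by norm_num) h4.1
          omega
    · push Not at h4
      exact T.psl p r hp hr h2 hpr F n hn h3 h4.1 (fun h5 => h4.2 h5.1 h5.2) S hna hz hd h
  · obtain ⟨F, _, _, _, m, hm, h3, h⟩ := h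
    rcases le_or_gt (bnd p F) (2 * m) with h4 | h4
    · exact B.psp p r hp hr h2 hpr F m hm h4 S hna hz hd h
    · exact T.psp p r hp hr h2 hpr F m hm h3 h4 S hna hz hd h
  · obtain ⟨F, _, _, _, n, q, hc, hn, h3, h⟩ := h
    by_cases h4 : p ^ 2 * orderOf (-(q : ZMod p)) ≤ n ∨ (p ∣ n ∧ p ∣ q + 1)
    · by_cases hn4 : 4 ≤ n
      · exact B.psu p r hp hr h2 hpr F n q hc hn4 h4 S hna hz hd h
      · have hn3 : n = 3 := by omega
        subst hn3
        refine T.psu p r hp hr h2 hpr F 3 q hc hn h3 ?_ (Or.inl rfl) S hna hz hd h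
        have hp3 : 3 ≤ p := by have := hp.two_le; omega
        have h5 : 0 < orderOf (-(q : ZMod p)) := by
          have : Fact p.Prime := ⟨hp⟩
          have hu : IsUnit ((q : ℕ) : ZMod p) := by
            rw [ZMod.isUnit_iff_coprime]
            obtain ⟨k, -, hk⟩ := FiniteField.card F r
            have h8 : q ∣ r ^ (k : ℕ) := by rw [← hk, hc]; exact dvd_pow_self q (by norm_num)
            obtain ⟨j, -, hj⟩ := (Nat.dvd_prime_pow hr).1 h8
            rw [hj]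
            exact Nat.Coprime.pow_left _ ((Nat.coprime_primes hr hp).2 hpr.symm)
          obtain ⟨x, hx⟩ := hu.neg
          rw [← hx, orderOf_units]
          exact orderOf_pos x
        have h6 : 9 ≤ p ^ 2 := by nlinarith
        have h7 : 9 ≤ p ^ 2 * orderOf (-(q : ZMod p)) := by nlinarith
        omega
    · push Not at h4
      exact T.psu p r hp hr h2 hpr F n q hc hn h3 h4.1 (Or.inr fun h5 => h4.2 h5.1 h5.2) S hna hz hd h
  · obtain ⟨F, _, _, _, m, hm, h3, h⟩ := h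
    rcases le_or_gt (bnd p F) (2 * m) with h4 | h4
    · exact B.odd p r hp hr h2 hpr F m hm h3 h4 S hna hz hd h
    · exact T.odd p r hp hr h2 hpr F m hm h3 h4 S hna hz hd h
  · obtain ⟨F, _, _, _, m, hm, h⟩ := h
    rcases lt_trichotomy (bnd p F) (2 * m) with h4 | h4 | h4
    · exact B.plus p r hp hr h2 hpr F m hm (Or.inl h4) S hna hz hd h
    · rcases Nat.even_or_odd (ordF p F) with h5 | h5
      · exact T.plus p r hp hr h2 hpr F m hm (Or.inr ⟨h4.symm, h5⟩) S hna hz hd h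
      · exact B.plus p r hp hr h2 hpr F m hm (Or.inr ⟨h4, h5⟩) S hna hz hd h
    · exact T.plus p r hp hr h2 hpr F m hm (Or.inl h4) S hna hz hd h
  · obtain ⟨F, _, _, _, m, a, b, hm, hab, h⟩ := h
    rcases lt_trichotomy (bnd p F) (2 * m) with h4 | h4 | h4
    · exact B.minus p r hp hr h2 hpr F m a b hm hab (Or.inl h4) S hna hz hd h
    · rcases Nat.even_or_odd (ordF p F) with h5 | h5
      · exact B.minus p r hp hr h2 hpr F m a b hm hab (Or.inr ⟨h4, h5⟩) S hna hz hd h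
      · exact T.minus p r hp hr h2 hpr F m a b hm hab (Or.inr ⟨h4.symm, h5⟩) S hna hz hd h
    · exact T.minus p r hp hr h2 hpr F m a b hm hab (Or.inl h4) S hna hz hd h
  · obtain ⟨F, _, _, _, h⟩ := h
    by_cases h5 : p = 3
    · subst h5
      rcases h with ⟨h3, h⟩ | h | h | h | h
      · exact T.g2 3 r hp hr h2 hpr F h3 S hna hz hd h
      · exact T.f4 3 r hp hr h2 hpr F S hna hz hd h
      · exact B.e6 r hr hpr.symm F S hna hz hd h
      · exact B.e7 r hr hpr.symm F S hna hz hd h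
      · exact B.e8 r hr hpr.symm F S hna hz hd h
    · rcases h with ⟨h3, h⟩ | h | h | h | h
      · exact T.g2 p r hp hr h2 hpr F h3 S hna hz hd h
      · exact T.f4 p r hp hr h2 hpr F S hna hz hd h
      · exact T.e6 p r hp hr h2 h5 hpr F S hna hz hd h
      · exact T.e7 p r hp hr h2 h5 hpr F S hna hz hd h
      · exact T.e8 p r hp hr h2 h5 hpr F S hna hz hd h
  · obtain ⟨K, _, _, _, q, hq, ⟨hc, h⟩ | ⟨hc, h⟩⟩ := h
    · by_cases h5 : p = 3
      · subst h5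
        exact B.te r hr hpr.symm K q hq hc S hna hz hd h
      · exact T.te p r hp hr h2 h5 hpr K q hq hc S hna hz hd h
    · exact T.td p r hp hr h2 hpr K q hq hc S hna hz hd h
  · exact T.sz p hp h2 S hna hz hd h
  · exact T.tf p hp h2 S hna hz hd h
  · exact T.ree p hp h2 hpr S hna hz hd h

/-- All rows. -/
theorem rows_of_table (hK : ∀ (S : Type u) [Group S] [Finite S] [IsSimpleGroup S], IsKnownSimple' S)
    (hS : ∀ (S : Type u) [Group S] [Finite S] [IsSimpleGroup S], ¬ IsMulCommutative S → SizeOK S)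
    (TA : TabAS.{u}) (TO : TabOwn.{u}) (T2 : TabTwo.{u}) (TB : TabBig.{u}) (TS : TabSmall.{u}) : Rows.{u} := by
  intro S _ _ _ hna
  have hz := hS S hna
  refine ⟨hz, fun p hp hd => ?_⟩
  rcases OddHalf.Known.classify' hna (hK S) with h | ⟨r, hr, h⟩ | h | h
  · exact TA.alt p hp S hna hz hd h
  · by_cases hpr : p = r
    · subst hpr
      exact TO.row hp S hna hz hd h
    · by_cases h2 : p = 2
      · subst h2
        exact T2.row hr (fun h0 => hpr h0.symm) S hna hz hd h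
      · exact TB.row TS hp hr h2 hpr S hna hz hd h
  · exact TA.tits p hp S hna hz hd h
  · exact TA.spor p hp S hna hz hd h

end Cfsg.Agent.H787.BD
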